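import Mathlib
import Cfsg.Prelude.Def_Transfer
import Cfsg.Agent.Lib.Helper51.TI3.Defs

/-!
# S1904 packages (helper32): nonabelian 2-group `X` without `SCN_3`, `X = [X, A]`, `A` of odd order.

`omZ X = Ω₁(Z(X))`, `bigW X / omZ X = Ω₁(Z(X / omZ X))`.
-/

set_option autoImplicit false

universe u

namespace Cfsg.Agent.Lib.Helper32.Scn

/-- `Ω₁(Z(X))`: the central elements with `z * z = 1`. -/
def omZ (X : Type u) [Group X] : Subgroup X where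
  carrier := {z | z ∈ Subgroup.center X ∧ z * z = 1}
  one_mem' := ⟨Subgroup.one_mem _, by simp⟩
  mul_mem' := by
    rintro a b ⟨ha, ha2⟩ ⟨hb, hb2⟩
    refine ⟨Subgroup.mul_mem _ ha hb, ?_⟩
    have h := Subgroup.mem_center_iff.mp hb a
    calc a * b * (a * b) = a * (b * a) * b := by group
      _ = a * (a * b) * b := by rw [← h]
      _ = (a * a) * (b * b) := by group
      _ = 1 := by rw [ha2, hb2, one_mul]
  inv_mem' := by
    rintro a ⟨ha, ha2⟩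
    refine ⟨Subgroup.inv_mem _ ha, ?_⟩
    calc a⁻¹ * a⁻¹ = (a * a)⁻¹ := by group
      _ = 1 := by rw [ha2, inv_one]

variable {X : Type u} [Group X]

theorem mem_omZ {z : X} : z ∈ omZ X ↔ z ∈ Subgroup.center X ∧ z * z = 1 := Iff.rfl

theorem omZ_comm {v : X} (hv : v ∈ omZ X) (g : X) : g * v = v * g :=
  Subgroup.mem_center_iff.mp hv.1 g

theorem omZ_sq {v : X} (hv : v ∈ omZ X) : v * v = 1 := hv.2

theorem omZ_inv {v : X} (hv : v ∈ omZ X) : v⁻¹ = v := by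
  have := hv.2
  exact inv_eq_of_mul_eq_one_left this

/-- `omZ X` is invariant under every automorphism. -/
theorem omZ_aut (ψ : MulAut X) {v : X} (hv : v ∈ omZ X) : ψ v ∈ omZ X := by
  refine ⟨?_, ?_⟩
  · rw [Subgroup.mem_center_iff]
    intro g
    have h := omZ_comm hv (ψ⁻¹ g)
    have h2 := congrArg ψ h
    simpa using h2
  · rw [← map_mul, hv.2, map_one]

instance omZ_normal : (omZ X).Normal := by
  constructor
  intro v hv g
  have h := omZ_comm hv g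
  have : g * v * g⁻¹ = v := by rw [h]; group
  rw [this]; exact hv

/-- The preimage of `Ω₁(Z(X / omZ X))`. -/
def bigW (X : Type u) [Group X] : Subgroup X where
  carrier := {w | w * w ∈ omZ X ∧ ∀ g : X, g * w * g⁻¹ * w⁻¹ ∈ omZ X}
  one_mem' := ⟨by simp [(omZ X).one_mem], fun g => by simp [(omZ X).one_mem]⟩
  mul_mem' := by
    rintro a b ⟨ha2, ha⟩ ⟨hb2, hb⟩
    refine ⟨?_, fun g => ?_⟩
    · have hc := ha b
      have e : a * b * (a * b) = (a * a) * (b * a * b⁻¹ * a⁻¹) * (b * b) := by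
        have h1 := omZ_comm hc (a * a)
        calc a * b * (a * b) = a * (b * a * b⁻¹ * a⁻¹) * a * (b * b) := by group
          _ = a * ((b * a * b⁻¹ * a⁻¹) * a) * (b * b) := by group
          _ = a * (a * (b * a * b⁻¹ * a⁻¹)) * (b * b) := by rw [omZ_comm hc a]
          _ = (a * a) * (b * a * b⁻¹ * a⁻¹) * (b * b) := by group
      rw [e]
      exact (omZ X).mul_mem ((omZ X).mul_mem ha2 hc) hb2
    · have h1 := ha g
      have h2 := hb g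
      have e : g * (a * b) * g⁻¹ * (a * b)⁻¹
          = (g * a * g⁻¹ * a⁻¹) * (g * b * g⁻¹ * b⁻¹) := by
        calc g * (a * b) * g⁻¹ * (a * b)⁻¹
            = (g * a * g⁻¹ * a⁻¹) * (a * (g * b * g⁻¹ * b⁻¹)) * a⁻¹ := by group
          _ = (g * a * g⁻¹ * a⁻¹) * ((g * b * g⁻¹ * b⁻¹) * a) * a⁻¹ := by rw [omZ_comm h2 a]
          _ = (g * a * g⁻¹ * a⁻¹) * (g * b * g⁻¹ * b⁻¹) := by group
      rw [e]
      exact (omZ X).mul_mem h1 h2
  inv_mem' := by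
    rintro a ⟨ha2, ha⟩
    refine ⟨?_, fun g => ?_⟩
    · have : a⁻¹ * a⁻¹ = (a * a)⁻¹ := by group
      rw [this]; exact (omZ X).inv_mem ha2
    · have h1 := ha g
      have e : g * a⁻¹ * g⁻¹ * a⁻¹⁻¹ = a⁻¹ * (g * a * g⁻¹ * a⁻¹)⁻¹ * a := by group
      rw [e, omZ_comm ((omZ X).inv_mem h1) a⁻¹]
      have : (g * a * g⁻¹ * a⁻¹)⁻¹ * a⁻¹ * a = (g * a * g⁻¹ * a⁻¹)⁻¹ := by group
      rw [this]; exact (omZ X).inv_mem h1

theorem mem_bigW {w : X} :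
    w ∈ bigW X ↔ w * w ∈ omZ X ∧ ∀ g : X, g * w * g⁻¹ * w⁻¹ ∈ omZ X := Iff.rfl

theorem omZ_le_bigW : omZ X ≤ bigW X := by
  intro v hv
  refine ⟨by rw [hv.2]; exact (omZ X).one_mem, fun g => ?_⟩
  have : g * v * g⁻¹ * v⁻¹ = 1 := by rw [omZ_comm hv g]; group
  rw [this]; exact (omZ X).one_mem

/-- `bigW X` is invariant under every automorphism. -/
theorem bigW_aut (ψ : MulAut X) {w : X} (hw : w ∈ bigW X) : ψ w ∈ bigW X := by
  refine ⟨?_, fun g => ?_⟩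
  · rw [← map_mul]; exact omZ_aut ψ hw.1
  · have h := omZ_aut ψ (hw.2 (ψ⁻¹ g))
    simpa using h

instance bigW_normal : (bigW X).Normal := by
  constructor
  intro w hw g
  have h := bigW_aut (MulAut.conj g) hw
  simpa using h

/-- The three alternatives of S1904. -/
def Alt1 (X : Type u) [Group X] : Prop := Nonempty (X ≃* QuaternionGroup 2)

def Alt2 (X : Type u) [Group X] : Prop :=
  Cfsg.IsSpecial 2 X ∧ Nat.card X = 64 ∧ Nat.card {x : X // orderOf x = 2} = 3 ∧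
    ∀ x : X, orderOf x = 2 → x ∈ Subgroup.center X

def Alt3 (X : Type u) [Group X] : Prop :=
  Cfsg.IsExtraspecial 2 X ∧ Nat.card X = 32 ∧ Nat.card {x : X // orderOf x = 2} = 11

/-- The hypotheses of S1904 in working form (`noE8`: no normal elementary abelian subgroup of
order `≥ 8`). -/
structure Hyp (X : Type u) [Group X] (A : Subgroup (MulAut X)) : Prop where
  two : IsPGroup 2 X
  na : ∃ a b : X, a * b ≠ b * a
  odd : Odd (Nat.card A)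
  gen : Subgroup.closure {g : X | ∃ φ ∈ A, ∃ x : X, g = x⁻¹ * φ x} = ⊤
  noE8 : ∀ E : Subgroup X, E.Normal → (∀ e ∈ E, e * e = 1) → Nat.card E ≤ 4

/-- (T1) a subgroup containing all `x⁻¹ * ψ x` is everything. -/
theorem Hyp.top_of_mem {A : Subgroup (MulAut X)} (h : Hyp X A) (N : Subgroup X)
    (hN : ∀ ψ ∈ A, ∀ x : X, x⁻¹ * ψ x ∈ N) : ∀ x : X, x ∈ N := by
  have : (⊤ : Subgroup X) ≤ N := by
    rw [← h.gen, Subgroup.closure_le]
    rintro g ⟨ψ, hψ, x, rfl⟩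
    exact hN ψ hψ x
  exact fun x => this (Subgroup.mem_top x)

/-- (T3) there is no `A`-invariant subgroup of index 2. -/
theorem Hyp.no_index_two {A : Subgroup (MulAut X)} (h : Hyp X A) (N : Subgroup X)
    (hA : ∀ ψ ∈ A, ∀ x ∈ N, ψ x ∈ N) (h2 : N.index = 2) : False := by
  have hall : ∀ x : X, x ∈ N := by
    apply h.top_of_mem N
    intro ψ hψ x
    by_cases hx : x ∈ N
    · exact N.mul_mem (N.inv_mem hx) (hA ψ hψ x hx)
    · have hψx : ψ x ∉ N := by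
        intro hc
        have := hA ψ⁻¹ (A.inv_mem hψ) _ hc
        simp at this
        exact hx this
      have hx' : x⁻¹ ∉ N := fun hc => hx (by simpa using N.inv_mem hc)
      exact (Subgroup.mul_mem_iff_of_index_two h2).mpr ⟨fun hh => absurd hh hx', fun hh => absurd hh hψx⟩
  have : N = ⊤ := by ext x; simp [hall x]
  rw [this] at h2
  simp at h2

/-- Context of case (α): `A` centralizes `omZ X`. -/
structure ACtx (X : Type u) [Group X] (A : Subgroup (MulAut X)) : Prop where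
  hyp : Hyp X A
  cen : ∀ z : X, z ∈ Subgroup.center X → z ∈ omZ X
  sq : ∀ x : X, x * x ∈ omZ X
  comm : ∀ x y : X, x * y * x⁻¹ * y⁻¹ ∈ omZ X
  fix : ∀ ψ ∈ A, ∀ v ∈ omZ X, ψ v = v
  der : ∀ v ∈ omZ X, v ∈ commutator X

/-- Context of case (β): `φ ∈ A` permutes the three involutions of `omZ X` cyclically. -/
structure BCtx (X : Type u) [Group X] (A : Subgroup (MulAut X)) (φ : MulAut X) : Prop where
  hyp : Hyp X A
  Vcard : Nat.card (omZ X) = 4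
  φmem : φ ∈ A
  φV : ∀ v ∈ omZ X, v ≠ 1 → φ v ≠ v
  actV : ∀ ψ ∈ A, (∀ v ∈ omZ X, ψ v = v) ∨ (∀ v ∈ omZ X, ψ v = φ v) ∨
    (∀ v ∈ omZ X, ψ v = φ (φ v))
  inv : ∀ t : X, t * t = 1 → (∀ g : X, g * t * g⁻¹ * t⁻¹ ∈ omZ X) → t ∈ omZ X
  abel : ∀ B : Subgroup X, B.Normal → (∀ ψ ∈ A, ∀ b ∈ B, ψ b ∈ B) →
    (∀ a ∈ B, ∀ b ∈ B, a * b = b * a) → B ≠ ⊥ →
    omZ X ≤ B ∧ ∀ b ∈ B, b * b = 1 → b ∈ omZ X

/-- `Lv M k x`: `[x, M] ⊆ Ω_k(M)`. -/
def Lv (M : Subgroup X) (k : ℕ) (x : X) : Prop :=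
  ∀ m ∈ M, (x * m * x⁻¹ * m⁻¹) ^ (2 ^ k) = 1

/-- A maximal `A`-invariant normal abelian subgroup `M ⊇ bigW X`, `M ≠ omZ X` (case β2). -/
structure MCtx0 (X : Type u) [Group X] (A : Subgroup (MulAut X)) (φ : MulAut X)
    (M : Subgroup X) : Prop where
  b : BCtx X A φ
  nrm : M.Normal
  inv : ∀ ψ ∈ A, ∀ m ∈ M, ψ m ∈ M
  ab : ∀ a ∈ M, ∀ b ∈ M, a * b = b * a
  max : ∀ B : Subgroup X, B.Normal → (∀ ψ ∈ A, ∀ b ∈ B, ψ b ∈ B) →
    (∀ a ∈ B, ∀ b ∈ B, a * b = b * a) → M ≤ B → B ≤ M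
  W_le : bigW X ≤ M
  ne : ∃ m ∈ M, m ∉ omZ X

/-- `MCtx0` plus the homocyclic facts: exponent `2 ^ n`, `n ≥ 2`, `m ↦ m ^ (2 ^ (n - 1))` maps `M`
onto `omZ X` with kernel the squares. -/
structure MCtx (X : Type u) [Group X] (A : Subgroup (MulAut X)) (φ : MulAut X)
    (M : Subgroup X) (n : ℕ) : Prop where
  c : MCtx0 X A φ M
  n2 : 2 ≤ n
  exp : ∀ m ∈ M, m ^ (2 ^ n) = 1
  top : ∀ v ∈ omZ X, ∃ m ∈ M, m ^ (2 ^ (n - 1)) = v
  sqr : ∀ m ∈ M, m ^ (2 ^ (n - 1)) = 1 → ∃ u ∈ M, m = u * u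

/-- Tools for the level filtration of `X` acting on `M`. -/
structure MT (X : Type u) [Group X] (M : Subgroup X) (n : ℕ) : Prop where
  cen : ∀ x : X, (∀ m ∈ M, x * m = m * x) → x ∈ M
  sqc : ∀ g : X, ∀ m ∈ M, ∃ u ∈ M, g * m * g⁻¹ * m⁻¹ = u * u
  low : ∀ (g : X) (k : ℕ), ∀ m ∈ M, m ^ (2 ^ (k + 1)) = 1 → (g * m * g⁻¹ * m⁻¹) ^ (2 ^ k) = 1
  c1 : ∀ k : ℕ, 1 ≤ k → (∀ y : X, Lv M (k - 1) y → y ∈ M) → ∀ x : X, Lv M k x →
    ∀ g : X, g * x * g⁻¹ * x⁻¹ ∈ M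
  c2 : ∀ k : ℕ, 1 ≤ k → (∀ y : X, Lv M (k - 1) y → y ∈ M) → ∀ x : X, Lv M k x → x * x ∈ M
  lvn : ∀ x : X, Lv M (n - 1) x

/-! ## The packages -/

/-- (R) no normal elementary abelian subgroup of order `≥ 8`. -/
def LemNoE8 : Prop :=
  ∀ {X : Type u} [Group X] [Finite X], IsPGroup 2 X →
    (¬ ∃ A : Subgroup X, A.Normal ∧ Subgroup.centralizer (A : Set X) = A ∧
      ∃ E : Subgroup X, E ≤ A ∧ Cfsg.IsElementaryAbelian 2 E ∧ Nat.card E = 8) →
    ∀ E : Subgroup X, E.Normal → (∀ e ∈ E, e * e = 1) → Nat.card E ≤ 4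

/-- (I8) an involution `t` with `[t, X] ⊆ omZ X` lies in `omZ X` when `|omZ X| = 4`. -/
def LemInv8 : Prop :=
  ∀ {X : Type u} [Group X] [Finite X],
    (∀ E : Subgroup X, E.Normal → (∀ e ∈ E, e * e = 1) → Nat.card E ≤ 4) →
    Nat.card (omZ X) = 4 → ∀ t : X, t * t = 1 → (∀ g : X, g * t * g⁻¹ * t⁻¹ ∈ omZ X) → t ∈ omZ X

/-- (FX) an `A`-fixed element `z` has `z ^ |A| ∈ X'`. -/
def LemFix : Prop :=
  ∀ {X : Type u} [Group X] [Finite X] (A : Subgroup (MulAut X)), Hyp X A →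
    ∀ z : X, (∀ ψ ∈ A, ψ z = z) → z ^ Nat.card A ∈ commutator X

/-- (A0a) in case (α) every `A`-invariant normal abelian subgroup is central and fixed by `A`. -/
def LemA0a : Prop :=
  ∀ {X : Type u} [Group X] [Finite X] (A : Subgroup (MulAut X)), Hyp X A →
    (∀ ψ ∈ A, ∀ v ∈ omZ X, ψ v = v) →
    ∀ B : Subgroup X, B.Normal → (∀ ψ ∈ A, ∀ b ∈ B, ψ b ∈ B) →
      (∀ a ∈ B, ∀ b ∈ B, a * b = b * a) →
      B ≤ Subgroup.center X ∧ ∀ ψ ∈ A, ∀ b ∈ B, ψ b = b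

/-- (A0) case (α): `Z(X) = omZ X ⊇` squares and commutators, `omZ X ≤ X'`. -/
def LemA0 : Prop :=
  ∀ {X : Type u} [Group X] [Finite X] (A : Subgroup (MulAut X)), Hyp X A →
    (∀ ψ ∈ A, ∀ v ∈ omZ X, ψ v = v) → ACtx X A

/-- (A1c) case (α), `|omZ X| = 2`: `|X| ∈ {8, 32}`. -/
def LemA1card : Prop :=
  ∀ {X : Type u} [Group X] [Finite X] (A : Subgroup (MulAut X)), ACtx X A →
    Nat.card (omZ X) = 2 → Nat.card X = 8 ∨ Nat.card X = 32

/-- (A1q) case (α), `|omZ X| = 2`, `|X| = 8`: quaternion. -/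
def LemA1q8 : Prop :=
  ∀ {X : Type u} [Group X] [Finite X] (A : Subgroup (MulAut X)), ACtx X A →
    Nat.card (omZ X) = 2 → Nat.card X = 8 → Alt1 X

/-- (A1e) case (α), `|omZ X| = 2`, `|X| = 32`: extraspecial with 11 involutions. -/
def LemA1e32 : Prop :=
  ∀ {X : Type u} [Group X] [Finite X] (A : Subgroup (MulAut X)), ACtx X A →
    Nat.card (omZ X) = 2 → Nat.card X = 32 → Alt3 X

/-- (BD) group form of helper51's `LemBound4`: an "anisotropic" `W` has order `≤ 64`. -/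
def LemBound : Prop :=
  ∀ {X : Type u} [Group X] [Finite X] (W : Subgroup X), Nat.card (omZ X) = 4 → omZ X ≤ W →
    (∀ w ∈ W, w * w ∈ omZ X) → (∀ w ∈ W, ∀ w' ∈ W, w * w' * w⁻¹ * w'⁻¹ ∈ omZ X) →
    (∀ w ∈ W, w * w = 1 → w ∈ omZ X) → Nat.card W ≤ 64

/-- (A2c) case (α), `|omZ X| = 4`: `|X| = 64`. -/
def LemA2card : Prop :=
  ∀ {X : Type u} [Group X] [Finite X] (A : Subgroup (MulAut X)), ACtx X A →
    Nat.card (omZ X) = 4 → Nat.card X = 64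

/-- (S2) recognition of alternative 2. -/
def LemAlt2 : Prop :=
  ∀ {X : Type u} [Group X] [Finite X], IsPGroup 2 X → Nat.card X = 64 →
    Nat.card (omZ X) = 4 → (∀ z : X, z ∈ Subgroup.center X → z ∈ omZ X) →
    (∀ x : X, x * x ∈ omZ X) → (∀ x y : X, x * y * x⁻¹ * y⁻¹ ∈ omZ X) →
    (∀ v ∈ omZ X, v ∈ commutator X) → (∀ t : X, t * t = 1 → t ∈ omZ X) → Alt2 X

/-- (B0) case (β): the context. -/
def LemB0 : Prop :=
  ∀ {X : Type u} [Group X] [Finite X] (A : Subgroup (MulAut X)), Hyp X A →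
    (∃ ψ ∈ A, ∃ v ∈ omZ X, ψ v ≠ v) → ∃ φ : MulAut X, BCtx X A φ

/-- (Wc) case (β), `Z(bigW X) = omZ X`: `|bigW X| = 64`. -/
def LemWcard : Prop :=
  ∀ {X : Type u} [Group X] [Finite X] (A : Subgroup (MulAut X)) (φ : MulAut X), BCtx X A φ →
    (∀ w ∈ bigW X, (∀ w' ∈ bigW X, w * w' = w' * w) → w ∈ omZ X) → Nat.card (bigW X) = 64

/-- (Wt) case (β), `Z(bigW X) = omZ X`: `bigW X = X`. -/
def LemWtop : Prop :=
  ∀ {X : Type u} [Group X] [Finite X] (A : Subgroup (MulAut X)) (φ : MulAut X), BCtx X A φ →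
    (∀ w ∈ bigW X, (∀ w' ∈ bigW X, w * w' = w' * w) → w ∈ omZ X) → ∀ x : X, x ∈ bigW X

/-- (M0a) case (β), `Z(bigW X) ≠ omZ X`: `bigW X` is abelian and lies in a maximal `M`. -/
def LemM0a : Prop :=
  ∀ {X : Type u} [Group X] [Finite X] (A : Subgroup (MulAut X)) (φ : MulAut X), BCtx X A φ →
    ∀ w ∈ bigW X, w ∉ omZ X → (∀ w' ∈ bigW X, w * w' = w' * w) →
    ∃ M : Subgroup X, MCtx0 X A φ M

/-- (M0b) the homocyclic facts. -/
def LemM0b : Prop :=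
  ∀ {X : Type u} [Group X] [Finite X] (A : Subgroup (MulAut X)) (φ : MulAut X) (M : Subgroup X),
    MCtx0 X A φ M → ∃ n : ℕ, MCtx X A φ M n

/-- (Ma) `C_X(M) = M`. -/
def LemMa : Prop :=
  ∀ {X : Type u} [Group X] [Finite X] (A : Subgroup (MulAut X)) (φ : MulAut X) (M : Subgroup X)
    (n : ℕ), MCtx X A φ M n → ∀ x : X, (∀ m ∈ M, x * m = m * x) → x ∈ M

/-- (Mt) the tools. -/
def LemMtools : Prop :=
  ∀ {X : Type u} [Group X] [Finite X] (A : Subgroup (MulAut X)) (φ : MulAut X) (M : Subgroup X)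
    (n : ℕ), MCtx X A φ M n → (∀ x : X, (∀ m ∈ M, x * m = m * x) → x ∈ M) → MT X M n

/-- (MD) deep levels are trivial: if level `k - 1` is inside `M` and `k + 2 ≤ n`, so is level `k`. -/
def LemMD : Prop :=
  ∀ {X : Type u} [Group X] [Finite X] (A : Subgroup (MulAut X)) (φ : MulAut X) (M : Subgroup X)
    (n : ℕ), MCtx X A φ M n → MT X M n → ∀ k : ℕ, 1 ≤ k → k + 2 ≤ n →
    (∀ y : X, Lv M (k - 1) y → y ∈ M) → ∀ x : X, Lv M k x → x ∈ M

/-- (ME) `n ≥ 3` and level `n - 2` inside `M` is impossible. -/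
def LemME : Prop :=
  ∀ {X : Type u} [Group X] [Finite X] (A : Subgroup (MulAut X)) (φ : MulAut X) (M : Subgroup X)
    (n : ℕ), MCtx X A φ M n → MT X M n → 3 ≤ n → (∀ y : X, Lv M (n - 2) y → y ∈ M) → False

/-- (MF) `n = 2` is impossible. -/
def LemMF : Prop :=
  ∀ {X : Type u} [Group X] [Finite X] (A : Subgroup (MulAut X)) (φ : MulAut X) (M : Subgroup X)
    (n : ℕ), MCtx X A φ M n → MT X M n → n = 2 → False

end Cfsg.Agent.Lib.Helper32.Scn
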