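import Mathlib
import Cfsg.Agent.Lib.Helper32.Scn.Defs

/-!
# S1904: small tools on `omZ X` in case (β) (`φ` acts as a 3-cycle on `omZ X ∖ {1}`).
-/

set_option autoImplicit false

universe u

namespace Cfsg.Agent.Lib.Helper32.Scn

variable {X : Type u} [Group X] {A : Subgroup (MulAut X)} {φ : MulAut X}

theorem BCtx.phi_mem (_h : BCtx X A φ) {v : X} (hv : v ∈ omZ X) : φ v ∈ omZ X := omZ_aut φ hv

theorem BCtx.phi_ne_one (_h : BCtx X A φ) {v : X} (hv1 : v ≠ 1) : φ v ≠ 1 := by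
  intro hc
  apply hv1
  have : φ v = φ 1 := by rw [hc, map_one]
  exact φ.injective this

/-- `φ² v ≠ v` for `1 ≠ v ∈ omZ X`. -/
theorem BCtx.phi2_ne (h : BCtx X A φ) {v : X} (hv : v ∈ omZ X) (hv1 : v ≠ 1) : φ (φ v) ≠ v := by
  intro hc
  have hφv := h.phi_mem hv
  have hu : v * φ v ∈ omZ X := (omZ X).mul_mem hv hφv
  have hu1 : v * φ v ≠ 1 := by
    intro h1
    have : φ v = v⁻¹ := eq_inv_of_mul_eq_one_right h1
    rw [omZ_inv hv] at this
    exact h.φV v hv hv1 this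
  apply h.φV _ hu hu1
  rw [map_mul, hc, omZ_comm hv (φ v)]

/-- the four elements of `omZ X`. -/
theorem BCtx.V_cases (h : BCtx X A φ) {v : X} (hv : v ∈ omZ X) (hv1 : v ≠ 1) :
    ∀ u ∈ omZ X, u = 1 ∨ u = v ∨ u = φ v ∨ u = φ (φ v) := by
  classical
  have hfin : Finite (omZ X) := Nat.finite_of_card_ne_zero (by rw [h.Vcard]; norm_num)
  have := Fintype.ofFinite (omZ X)
  have hφv := h.phi_mem hv
  have hφφv := h.phi_mem hφv
  have h1 : φ v ≠ 1 := h.phi_ne_one hv1
  have h2 : φ (φ v) ≠ 1 := h.phi_ne_one h1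
  have h3 : φ v ≠ v := h.φV v hv hv1
  have h4 : φ (φ v) ≠ φ v := h.φV _ hφv h1
  have h5 : φ (φ v) ≠ v := h.phi2_ne hv hv1
  let S : Finset (omZ X) := {⟨1, (omZ X).one_mem⟩, ⟨v, hv⟩, ⟨φ v, hφv⟩, ⟨φ (φ v), hφφv⟩}
  have hS : S.card = 4 := by
    rw [Finset.card_insert_of_notMem, Finset.card_insert_of_notMem, Finset.card_insert_of_notMem,
      Finset.card_singleton]
    · simp only [Finset.mem_singleton, Subtype.mk.injEq]; exact fun hc => h4 hc.symm
    · simp only [Finset.mem_insert, Finset.mem_singleton, Subtype.mk.injEq, not_or]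
      exact ⟨fun hc => h3 hc.symm, fun hc => h5 hc.symm⟩
    · simp only [Finset.mem_insert, Finset.mem_singleton, Subtype.mk.injEq, not_or]
      exact ⟨fun hc => hv1 hc.symm, fun hc => h1 hc.symm, fun hc => h2 hc.symm⟩
  have hcard : Fintype.card (omZ X) = 4 := by rw [← Nat.card_eq_fintype_card, h.Vcard]
  have hSu : S = Finset.univ := Finset.eq_univ_of_card S (by rw [hS, hcard])
  intro u hu
  have hmem : (⟨u, hu⟩ : omZ X) ∈ S := by rw [hSu]; exact Finset.mem_univ _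
  simp only [S, Finset.mem_insert, Finset.mem_singleton, Subtype.mk.injEq] at hmem
  exact hmem

/-- `φ³ v = v` on `omZ X`. -/
theorem BCtx.phi3 (h : BCtx X A φ) {v : X} (hv : v ∈ omZ X) : φ (φ (φ v)) = v := by
  by_cases hv1 : v = 1
  · subst hv1; simp
  have hφv := h.phi_mem hv
  have hφφv := h.phi_mem hφv
  have h1 : φ v ≠ 1 := h.phi_ne_one hv1
  have h2 : φ (φ v) ≠ 1 := h.phi_ne_one h1
  rcases h.V_cases hv hv1 _ (h.phi_mem hφφv) with hc | hc | hc | hc
  · exact absurd hc (h.phi_ne_one h2)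
  · exact hc
  · exact absurd hc (h.phi2_ne hφv h1)
  · exact absurd hc (h.φV _ hφφv h2)

/-- `v * φ v = φ² v` on `omZ X`. -/
theorem BCtx.mul_phi (h : BCtx X A φ) {v : X} (hv : v ∈ omZ X) : v * φ v = φ (φ v) := by
  by_cases hv1 : v = 1
  · subst hv1; simp
  have hφv := h.phi_mem hv
  rcases h.V_cases hv hv1 _ ((omZ X).mul_mem hv hφv) with hc | hc | hc | hc
  · exfalso
    have : φ v = v⁻¹ := eq_inv_of_mul_eq_one_right hc
    rw [omZ_inv hv] at this
    exact h.φV v hv hv1 this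
  · exfalso
    have : φ v = 1 := by simpa using hc
    exact h.phi_ne_one hv1 this
  · exfalso
    have : v = 1 := by simpa using hc
    exact hv1 this
  · exact hc

/-- a `φ`-invariant subgroup containing a nontrivial element of `omZ X` contains `omZ X`. -/
theorem BCtx.omZ_le_of_mem (h : BCtx X A φ) (D : Subgroup X) (hD : ∀ d ∈ D, φ d ∈ D) {v : X}
    (hv : v ∈ omZ X) (hv1 : v ≠ 1) (hvD : v ∈ D) : omZ X ≤ D := by
  intro u hu
  rcases h.V_cases hv hv1 u hu with rfl | rfl | rfl | rfl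
  · exact D.one_mem
  · exact hvD
  · exact hD _ hvD
  · exact hD _ (hD _ hvD)

/-- every `ψ ∈ A` maps `omZ X` into itself and `M`-type facts: `ψ` acts on `omZ X` as a power
of `φ`, so it moves every `v ≠ 1` or fixes all. -/
theorem BCtx.act_cases (h : BCtx X A φ) {ψ : MulAut X} (hψ : ψ ∈ A) :
    (∀ v ∈ omZ X, ψ v = v) ∨ (∀ v ∈ omZ X, v ≠ 1 → ψ v ≠ v) := by
  rcases h.actV ψ hψ with h1 | h1 | h1
  · exact Or.inl h1
  · exact Or.inr fun v hv hv1 => by rw [h1 v hv]; exact h.φV v hv hv1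
  · exact Or.inr fun v hv hv1 => by rw [h1 v hv]; exact h.phi2_ne hv hv1

end Cfsg.Agent.Lib.Helper32.Scn
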