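import Mathlib
import Cfsg.Agent.Lib.Helper32.Scn.Defs
import Cfsg.Agent.Lib.Helper87.PGroupFrattini

/-!
# S1904 package [S2]: recognition of alternative 2.
-/

set_option autoImplicit false

universe u

namespace Cfsg.Agent.Lib.Helper32.Scn

open scoped commutatorElement

/-- `frattini X = omZ X` when squares and commutators lie in `omZ X ≤ X'`. -/
theorem frattini_eq_omZ {X : Type u} [Group X] [Finite X] (hX : IsPGroup 2 X)
    (hsq : ∀ x : X, x * x ∈ omZ X) (hcomm : ∀ x y : X, x * y * x⁻¹ * y⁻¹ ∈ omZ X)
    (hder : ∀ v ∈ omZ X, v ∈ commutator X) : frattini X = omZ X := by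
  have : Fact (Nat.Prime 2) := ⟨Nat.prime_two⟩
  apply le_antisymm
  · letI : CommGroup (X ⧸ omZ X) :=
      { (inferInstance : Group (X ⧸ omZ X)) with
        mul_comm := by
          intro a b
          induction a using QuotientGroup.induction_on with
          | H a =>
            induction b using QuotientGroup.induction_on with
            | H b =>
              rw [← QuotientGroup.mk_mul, ← QuotientGroup.mk_mul, QuotientGroup.eq]
              have h := hcomm b⁻¹ a⁻¹
              have e : (a * b)⁻¹ * (b * a) = b⁻¹ * a⁻¹ * b⁻¹⁻¹ * a⁻¹⁻¹ := by group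
              rw [e]; exact h }
    have h := Cfsg.Agent.Lib.Helper87.frattini_le_ker_of_exponent (p := 2)
      (QuotientGroup.mk' (omZ X)) (by
        intro g
        change ((g : X ⧸ omZ X)) ^ 2 = 1
        rw [← QuotientGroup.mk_pow, QuotientGroup.eq_one_iff, pow_two]
        exact hsq g)
    rw [QuotientGroup.ker_mk'] at h
    exact h
  · intro v hv
    have h1 := hder v hv
    rw [commutator_eq_closure] at h1
    have hle : Subgroup.closure (commutatorSet X) ≤ frattini X := by
      rw [Subgroup.closure_le]
      rintro g ⟨a, b, rfl⟩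
      rw [SetLike.mem_coe, commutatorElement_def]
      exact Cfsg.Agent.Lib.Helper87.comm_mem_frattini hX a b
    exact hle h1

/-- `commutator X = omZ X`. -/
theorem commutator_eq_omZ {X : Type u} [Group X]
    (hcomm : ∀ x y : X, x * y * x⁻¹ * y⁻¹ ∈ omZ X)
    (hder : ∀ v ∈ omZ X, v ∈ commutator X) : commutator X = omZ X := by
  apply le_antisymm
  · rw [commutator_eq_closure, Subgroup.closure_le]
    rintro g ⟨a, b, rfl⟩
    rw [SetLike.mem_coe, commutatorElement_def]
    exact hcomm a b
  · exact fun v hv => hder v hv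

/-- `center X = omZ X`. -/
theorem center_eq_omZ {X : Type u} [Group X]
    (hcen : ∀ z : X, z ∈ Subgroup.center X → z ∈ omZ X) : Subgroup.center X = omZ X :=
  le_antisymm (fun z hz => hcen z hz) (fun _ hv => hv.1)

theorem lemAlt2 : LemAlt2.{u} := by
  intro X _ _ hX hcard hV hcen hsq hcomm hder hinv
  have hcenter := center_eq_omZ hcen
  have hcommu := commutator_eq_omZ hcomm hder
  have hfrat := frattini_eq_omZ hX hsq hcomm hder
  refine ⟨⟨hX, hfrat.trans hcenter.symm, hcommu.trans hcenter.symm⟩, hcard, ?_, ?_⟩
  · -- three involutions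
    have hset : {x : X | orderOf x = 2} = (omZ X : Set X) \ {1} := by
      ext x
      simp only [Set.mem_setOf_eq, Set.mem_diff, SetLike.mem_coe, Set.mem_singleton_iff]
      constructor
      · intro hx
        have h2 : x * x = 1 := by rw [← pow_two, ← hx]; exact pow_orderOf_eq_one x
        refine ⟨hinv x h2, ?_⟩
        rintro rfl
        rw [orderOf_one] at hx
        omega
      · rintro ⟨hxV, hx1⟩
        have : Fact (Nat.Prime 2) := ⟨Nat.prime_two⟩
        exact orderOf_eq_prime (by rw [pow_two]; exact hxV.2) hx1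
    have h1 : Nat.card {x : X // orderOf x = 2} = Set.ncard {x : X | orderOf x = 2} := by
      rw [← Nat.card_coe_set_eq]; rfl
    rw [h1, hset, Set.ncard_sdiff_singleton_of_mem (omZ X).one_mem]
    have h2 : Set.ncard (omZ X : Set X) = Nat.card (omZ X) := by
      rw [← Nat.card_coe_set_eq]; rfl
    rw [h2, hV]
  · intro x hx
    have h2 : x * x = 1 := by rw [← pow_two, ← hx]; exact pow_orderOf_eq_one x
    exact (hinv x h2).1

end Cfsg.Agent.Lib.Helper32.Scn
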