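import Mathlib
import Cfsg.Agent.Lib.Helper32.Scn.Defs
import Cfsg.Agent.S1894

/-!
# S1904 package [R]: no normal elementary abelian subgroup of order `≥ 8`.
-/

set_option autoImplicit false

universe u

namespace Cfsg.Agent.Lib.Helper32.Scn

theorem lemNoE8 : LemNoE8.{u} := by
  intro X _ _ hX hscn E hEn hE2
  by_contra hcard
  push Not at hcard
  have : Fact (Nat.Prime 2) := ⟨Nat.prime_two⟩
  -- E is abelian
  have hEab : ∀ a ∈ E, ∀ b ∈ E, a * b = b * a := by
    intro a ha b hb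
    have h1 := hE2 a ha
    have h2 := hE2 b hb
    have h3 := hE2 (a * b) (E.mul_mem ha hb)
    have ha' : a⁻¹ = a := inv_eq_of_mul_eq_one_left h1
    have hb' : b⁻¹ = b := inv_eq_of_mul_eq_one_left h2
    have h4 : a * b = (a * b)⁻¹ := (inv_eq_of_mul_eq_one_left h3).symm
    rw [h4, mul_inv_rev, ha', hb']
  -- 8 ∣ |E|
  obtain ⟨k, hk⟩ := (IsPGroup.iff_card).mp (hX.to_subgroup E)
  have hk3 : 3 ≤ k := by
    by_contra hc
    have hk2 : k ≤ 2 := by omega
    have : 2 ^ k ≤ 2 ^ 2 := Nat.pow_le_pow_right (by norm_num) hk2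
    omega
  have hdvd : 2 ^ 3 ∣ Nat.card E := by rw [hk]; exact pow_dvd_pow 2 hk3
  obtain ⟨K, hK⟩ := Sylow.exists_subgroup_card_pow_prime 2 hdvd
  let E' : Subgroup X := K.map E.subtype
  have hE'card : Nat.card E' = 8 := by
    have h1 : Nat.card E' = Nat.card K :=
      (Nat.card_congr (K.equivMapOfInjective E.subtype E.subtype_injective).toEquiv).symm
    rw [h1, hK]; norm_num
  have hE'le : E' ≤ E := Subgroup.map_subtype_le K
  have hE'el : Cfsg.IsElementaryAbelian 2 E' := by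
    refine ⟨⟨⟨fun a b => ?_⟩⟩, fun a ha => ?_⟩
    · exact Subtype.ext (hEab a (hE'le a.2) b (hE'le b.2))
    · rw [pow_two]; exact hE2 a (hE'le ha)
  have hEc : IsMulCommutative E := ⟨⟨fun a b => Subtype.ext (hEab a a.2 b b.2)⟩⟩
  obtain ⟨C, hCn, hEC, hscnC⟩ := Cfsg.Agent.S1894.result hX (⊤ : Subgroup X) E le_top hEc
  apply hscn
  refine ⟨C, hCn, ?_, E', hE'le.trans hEC, hE'el, hE'card⟩
  have := hscnC.2.2
  simpa using this

end Cfsg.Agent.Lib.Helper32.Scn
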