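import Mathlib
import Cfsg.Agent.Lib.Helper32.Scn.Tools

/-!
# S1904: assembly of the packages.
-/

set_option autoImplicit false

universe u

namespace Cfsg.Agent.Lib.Helper32.Scn

open scoped commutatorElement

variable {X : Type u} [Group X] [Finite X]

/-- `|Ω₁(Z(X))| ∈ {2, 4}`. -/
theorem card_omZ {A : Subgroup (MulAut X)} (h : Hyp X A) :
    Nat.card (omZ X) = 2 ∨ Nat.card (omZ X) = 4 := by
  have hle : Nat.card (omZ X) ≤ 4 := h.noE8 (omZ X) inferInstance (fun e he => omZ_sq he)
  have hp : IsPGroup 2 (omZ X) := h.two.to_subgroup _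
  have : Fact (Nat.Prime 2) := ⟨Nat.prime_two⟩
  obtain ⟨k, hk⟩ := (IsPGroup.iff_card).mp hp
  -- nontrivial centre
  obtain ⟨a, b, hab⟩ := h.na
  have : Nontrivial X := ⟨⟨a * b, b * a, hab⟩⟩
  have hcn : Nontrivial (Subgroup.center X) := h.two.center_nontrivial
  have h2 : 2 ∣ Nat.card (Subgroup.center X) := by
    obtain ⟨j, hj⟩ := (IsPGroup.iff_card).mp (h.two.to_subgroup (Subgroup.center X))
    have hj0 : j ≠ 0 := by
      rintro rfl
      have h1 : Nat.card (Subgroup.center X) = 1 := by simpa using hj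
      have := Finite.one_lt_card_iff_nontrivial.mpr hcn
      omega
    rw [hj]; exact dvd_pow_self 2 hj0
  obtain ⟨z, hz⟩ := exists_prime_orderOf_dvd_card' (G := Subgroup.center X) 2 h2
  have hz2 : (z : X) * (z : X) = 1 := by
    have : z ^ 2 = 1 := by rw [← hz]; exact pow_orderOf_eq_one z
    have h3 : ((z ^ 2 : Subgroup.center X) : X) = 1 := by rw [this]; rfl
    simpa [pow_two] using h3
  have hz1 : (z : X) ≠ 1 := by
    intro hc
    have : z = 1 := Subtype.ext hc
    rw [this, orderOf_one] at hz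
    omega
  have hzV : (z : X) ∈ omZ X := ⟨z.2, hz2⟩
  have hk0 : k ≠ 0 := by
    rintro rfl
    have h1 : Nat.card (omZ X) = 1 := by simpa using hk
    have hsub : Subsingleton (omZ X) := (Nat.card_eq_one_iff_unique.mp h1).1
    have := hsub.elim ⟨(z : X), hzV⟩ ⟨1, (omZ X).one_mem⟩
    exact hz1 (congrArg Subtype.val this)
  rw [hk] at hle ⊢
  have hk3 : k < 3 := by
    by_contra hc
    have : 2 ^ 3 ≤ 2 ^ k := Nat.pow_le_pow_right (by norm_num) (by omega)
    omega
  interval_cases k
  · exact absurd rfl hk0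
  · left; rfl
  · right; rfl

theorem main (hR : LemNoE8.{u}) (hI : LemInv8.{u}) (hA0 : LemA0.{u}) (hA1c : LemA1card.{u})
    (hA1q : LemA1q8.{u}) (hA1e : LemA1e32.{u}) (hA2c : LemA2card.{u}) (hS2 : LemAlt2.{u})
    (hB0 : LemB0.{u}) (hWc : LemWcard.{u}) (hWt : LemWtop.{u}) (hM0a : LemM0a.{u})
    (hM0b : LemM0b.{u}) (hMa : LemMa.{u}) (hMt : LemMtools.{u}) (hMD : LemMD.{u})
    (hME : LemME.{u}) (hMF : LemMF.{u})
    (hX : IsPGroup 2 X) (hna : ¬ IsMulCommutative X)
    (hscn : ¬ ∃ A : Subgroup X, A.Normal ∧ Subgroup.centralizer (A : Set X) = A ∧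
      ∃ E : Subgroup X, E ≤ A ∧ Cfsg.IsElementaryAbelian 2 E ∧ Nat.card E = 8)
    (A : Subgroup (MulAut X)) (hA : Odd (Nat.card A))
    (hXA : Subgroup.closure {g : X | ∃ φ ∈ A, ∃ x : X, g = x⁻¹ * φ x} = ⊤) :
    Alt1 X ∨ Alt2 X ∨ Alt3 X := by
  have hna' : ∃ a b : X, a * b ≠ b * a := by
    by_contra hc
    push Not at hc
    exact hna ⟨⟨hc⟩⟩
  have hyp : Hyp X A := ⟨hX, hna', hA, hXA, hR hX hscn⟩
  by_cases hα : ∀ ψ ∈ A, ∀ v ∈ omZ X, ψ v = v
  · -- case α
    have ctx := hA0 A hyp hα
    rcases card_omZ hyp with h2 | h4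
    · rcases hA1c A ctx h2 with h8 | h32
      · exact Or.inl (hA1q A ctx h2 h8)
      · exact Or.inr (Or.inr (hA1e A ctx h2 h32))
    · refine Or.inr (Or.inl ?_)
      exact hS2 hX (hA2c A ctx h4) h4 ctx.cen ctx.sq ctx.comm ctx.der
        (fun t ht => hI hyp.noE8 h4 t ht (fun g => ctx.comm g t))
  · -- case β
    push Not at hα
    obtain ⟨ψ, hψ, v, hv, hψv⟩ := hα
    obtain ⟨φ, b⟩ := hB0 A hyp ⟨ψ, hψ, v, hv, hψv⟩
    by_cases hZ : ∀ w ∈ bigW X, (∀ w' ∈ bigW X, w * w' = w' * w) → w ∈ omZ X
    · refine Or.inr (Or.inl ?_)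
      have htop := hWt A φ b hZ
      have hcard : Nat.card X = 64 := by
        have h64 := hWc A φ b hZ
        have : bigW X = ⊤ := by ext x; simp [htop x]
        rw [this] at h64
        rw [← h64]
        exact (Nat.card_congr (Equiv.Set.univ X)).symm ▸ rfl
      have hcomm : ∀ x y : X, x * y * x⁻¹ * y⁻¹ ∈ omZ X := fun x y => (htop y).2 x
      refine hS2 hX hcard b.Vcard ?_ (fun x => (htop x).1) hcomm ?_
        (fun t ht => b.inv t ht (fun g => hcomm g t))
      · intro z hz
        exact hZ z (htop z) (fun w' _ => (Subgroup.mem_center_iff.mp hz w').symm)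
      · -- omZ X ≤ commutator X
        obtain ⟨a, c, hac⟩ := hna'
        have hk : a * c * a⁻¹ * c⁻¹ ∈ omZ X := hcomm a c
        have hk1 : a * c * a⁻¹ * c⁻¹ ≠ 1 := by
          intro h1
          apply hac
          have : a * c = (a * c * a⁻¹ * c⁻¹) * (c * a) := by group
          rw [this, h1, one_mul]
        have hkc : a * c * a⁻¹ * c⁻¹ ∈ commutator X := by
          have : a * c * a⁻¹ * c⁻¹ = ⁅a, c⁆ := by rw [commutatorElement_def]
          rw [this]
          exact Subgroup.commutator_mem_commutator (Subgroup.mem_top a) (Subgroup.mem_top c)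
        have hchar : ∀ d ∈ commutator X, φ d ∈ commutator X := by
          intro d hd
          have hc : (commutator X).Characteristic := by
            unfold commutator; infer_instance
          have := (Subgroup.characteristic_iff_map_le.mp hc) φ
          exact this ⟨d, hd, rfl⟩
        exact b.omZ_le_of_mem (commutator X) hchar hk hk1 hkc
    · exfalso
      push Not at hZ
      obtain ⟨w, hw, hwc, hwV⟩ := hZ
      obtain ⟨M, m0⟩ := hM0a A φ b w hw hwV hwc
      obtain ⟨n, m⟩ := hM0b A φ M m0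
      have cen := hMa A φ M n m
      have t := hMt A φ M n m cen
      by_cases hn : n = 2
      · exact hMF A φ M n m t hn
      · have hn3 : 3 ≤ n := by have := m.n2; omega
        have key : ∀ k : ℕ, k + 2 ≤ n → ∀ y : X, Lv M k y → y ∈ M := by
          intro k
          induction k with
          | zero =>
            intro _ y hy
            apply cen
            intro m' hm'
            have h1 := hy m' hm'
            simp only [pow_zero, pow_one] at h1
            have : y * m' = (y * m' * y⁻¹ * m'⁻¹) * (m' * y) := by group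
            rw [this, h1, one_mul]
          | succ k ih =>
            intro hk y hy
            exact hMD A φ M n m t (k + 1) (by omega) hk
              (by simpa using ih (by omega)) y hy
        exact hME A φ M n m t hn3 (key (n - 2) (by omega))

end Cfsg.Agent.Lib.Helper32.Scn
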